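import Mathlib
import Cfsg.Agent.Base
import Cfsg.Agent.Lib.Core.GrpBasic

/-! Automorphisms of `2`-power order of a non-abelian group of order `343`. -/

set_option autoImplicit false
set_option linter.unusedSectionVars false
set_option linter.style.haveILetI false

open Subgroup
open scoped commutatorElement

namespace H8.K4

variable {Q : Type*} [Group Q] [Finite Q]

instance fact7 : Fact (Nat.Prime 7) := ⟨by norm_num⟩

theorem comm_mem (hQ : Nat.card Q = 343) (hZ : Nat.card (center Q) = 7) (u w : Q) :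
    ⁅u, w⁆ ∈ center Q := by
  have h := (center Q).card_mul_index
  have := (IsPGroup.isMulCommutative_of_card_eq_prime_sq (p := 7) (G := Q ⧸ center Q)
    (by rw [← index]; rw [hZ, hQ] at h; omega)).is_comm.comm u w
  rw [← QuotientGroup.eq_one_iff, ← QuotientGroup.mk'_apply, map_commutatorElement,
    commutatorElement_eq_one_iff_mul_comm]
  exact this

theorem exists_form (hQ : Nat.card Q = 343) (hZ : Nat.card (center Q) = 7) :
    ∃ b : Q → Q → ZMod 7, (∀ u w w', b u (w * w') = b u w + b u w') ∧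
      (∀ u w, b u w = 0 ↔ u * w = w * u) ∧ ∀ u w u' w', ⁅u', w'⁆ = ⁅u, w⁆⁻¹ → b u' w' = -b u w := by
  let e : center Q ≃* Multiplicative (ZMod 7) := mulEquivOfPrimeCardEq hZ (by simp)
  refine ⟨fun u w => (e ⟨_, comm_mem hQ hZ u w⟩).toAdd, fun u w w' => ?_, fun u w => ?_,
    fun u w u' w' h => ?_⟩
  · rw [← toAdd_mul, ← map_mul]
    refine congrArg (fun t => (e t).toAdd) (Subtype.ext ?_)
    have := mem_center_iff.1 (comm_mem hQ hZ u w') w
    calc ⁅u, w * w'⁆ = ⁅u, w⁆ * (w * ⁅u, w'⁆) * w⁻¹ := by simp only [commutatorElement_def]; group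
      _ = _ := by rw [this, ← mul_assoc, mul_inv_cancel_right]; rfl
  · rw [toAdd_eq_zero, EmbeddingLike.map_eq_one_iff, Subtype.ext_iff]
    exact commutatorElement_eq_one_iff_mul_comm
  · rw [← toAdd_inv, ← map_inv]
    exact congrArg (fun t => (e t).toAdd) (Subtype.ext h)

theorem inf_le_center (hQ : Nat.card Q = 343) (hZ : Nat.card (center Q) = 7) {x y : Q}
    (h : x * y ≠ y * x) : centralizer {x} ⊓ centralizer {y} ≤ center Q := by
  have h1 : centralizer {x} ⊓ centralizer {y} < centralizer ({x} : Set Q) :=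
    lt_of_le_of_ne inf_le_left fun e => h (mem_centralizer_singleton_iff.1
      (inf_eq_left.1 e (mem_centralizer_singleton_iff.2 rfl)))
  have h2 := H1.card_lt_of_ne_top (H := centralizer ({x} : Set Q)) fun e =>
    h (mem_centralizer_singleton_iff.1 (e.ge (mem_top y))).symm
  have h3 := H1.card_lt_of_lt h1
  obtain ⟨i, i1, i2⟩ := (Nat.dvd_prime_pow (p := 7) (m := 3) (by norm_num)).1
    (hQ ▸ card_subgroup_dvd_card (centralizer ({x} : Set Q)))
  obtain ⟨j, j1, j2⟩ := (Nat.dvd_prime_pow (p := 7) (m := 3) (by norm_num)).1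
    (hQ ▸ card_subgroup_dvd_card (centralizer {x} ⊓ centralizer {y} : Subgroup Q))
  refine (eq_of_le_of_card_ge (le_inf (center_le_centralizer _) (center_le_centralizer _)) ?_).ge
  rw [i2, hQ] at h2
  rw [i2, j2] at h3
  rw [j2, hZ]
  clear i2 j2
  interval_cases i <;> interval_cases j <;> omega

theorem inv_mod (hQ : Nat.card Q = 343) (hZ : Nat.card (center Q) = 7) {ψ : Q →* Q}
    (h1 : ∀ x, ψ (ψ x) = x) (h2 : ∀ x, ψ x = x → x ∈ center Q) (x : Q) : ψ x * x ∈ center Q := by
  set w := ψ x * x with hw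
  have c := comm_mem hQ hZ x (ψ x)
  set z := ⁅x, ψ x⁆ with hz
  have e1 : ψ w = z * w := by rw [hw, hz, map_mul, h1, commutatorElement_def]; group
  have e2 : ψ z = z⁻¹ := by rw [hz, map_commutatorElement, h1, commutatorElement_inv]
  have e3 : z ^ 7 = 1 := congrArg Subtype.val (hZ ▸ pow_card_eq_one' : (⟨z, c⟩ : center Q) ^ 7 = 1)
  have := h2 (z ^ 4 * w) (by
    rw [map_mul, map_pow, e1, e2, ← mul_assoc]
    congr 1
    rw [← mul_one (z⁻¹ ^ 4 * z), ← e3]; group)
  exact (mul_mem_cancel_left (pow_mem c 4)).1 this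

theorem no_inv (hQ : Nat.card Q = 343) (hZ : Nat.card (center Q) = 7) {φ ψ : Q →* Q}
    (hφ : ∀ z ∈ center Q, φ z = z⁻¹) (h1 : ∀ x, ψ (ψ x) = x) (h2 : ∀ x, ψ x = x → x ∈ center Q)
    (h : (∀ x, ψ x = φ x) ∨ (∀ x, ψ x = φ (φ x)) ∨ ∀ x, ψ x = φ (φ (φ (φ x)))) : False := by
  obtain ⟨b, b1, b2, b3⟩ := exists_form hQ hZ
  have s : ∀ u w, b w u = -b u w := fun u w => b3 _ _ _ _ (commutatorElement_inv u w).symm
  have f : ∀ u w, b (φ u) (φ w) = -b u w := fun u w => b3 _ _ _ _ (by
    rw [← map_commutatorElement, hφ _ (comm_mem hQ hZ u w)])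
  have o : ∀ u, b u u = 0 := fun u => (b2 u u).2 rfl
  have c : ∀ u, ∀ z ∈ center Q, b u z = 0 := fun u z hz => (b2 u z).2 (mem_center_iff.1 hz u)
  have pw : ∀ u w (n : ℕ), b u (w ^ n) = n * b u w := fun u w n => by
    induction n with
    | zero => rw [pow_zero, c u 1 (one_mem _)]; simp
    | succ n ih => rw [pow_succ, b1, ih]; push_cast; ring
  have iv : ∀ u w, b u (ψ w) = -b u w := fun u w => by
    have := c u _ (inv_mod hQ hZ h1 h2 w)
    rw [b1] at this
    linear_combination this
  obtain ⟨x, y, hxy⟩ : ∃ x y : Q, x * y ≠ y * x := by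
    by_contra e
    push Not at e
    rw [show center Q = ⊤ from eq_top_iff.2 fun a _ => mem_center_iff.2 fun g => e g a, card_top] at hZ
    omega
  have β : b x y ≠ 0 := fun e => hxy ((b2 x y).1 e)
  have co : ∀ w, ∃ i j : ZMod 7, ∀ v, b v w = i * b v x + j * b v y := fun w => by
    refine ⟨-b y w / b x y, b x w / b x y, fun v => ?_⟩
    have k : ∀ v, b v (x ^ (b y w / b x y).val * y ^ (-b x w / b x y).val * w) =
        b y w / b x y * b v x + -b x w / b x y * b v y + b v w := fun v => by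
      rw [b1, b1, pw, pw, ZMod.natCast_zmod_val, ZMod.natCast_zmod_val]
    have := c v _ (inf_le_center hQ hZ hxy ⟨mem_centralizer_singleton_iff.2 ((b2 _ _).1 (by
      rw [k, o]; field_simp; ring)).symm, mem_centralizer_singleton_iff.2 ((b2 _ _).1 (by
      rw [k, o, s x y]; field_simp; ring)).symm⟩)
    rw [k] at this
    linear_combination this
  choose i j co using co
  have cf : ∀ u w, b u w = (i u * j w - i w * j u) * b x y := fun u w => by
    rw [co w u, s x u, s y u, co u x, co u y, o, o, s x y]; ring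
  have pl : ∀ p q r t, b p q * b r t - b p r * b q t + b p t * b q r = 0 := fun p q r t => by
    simp only [cf p, cf q, cf r]; ring
  have two : ∀ a : ZMod 7, a = -a → a = 0 := by decide
  have z : ∀ u, b u (φ u) = 0 := fun u => by
    rcases h with h | h | h
    · rw [← h, iv, o, neg_zero]
    · have := f u (φ u)
      rw [← h, iv, s u, neg_neg] at this
      exact two _ this
    · have k1 := pl u (φ u) (φ (φ u)) (φ (φ (φ u)))
      have k2 := f (φ (φ u)) (φ (φ (φ u)))
      rw [← h, iv, s u, neg_neg, f, f, neg_neg] at k2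
      rw [k2, f, f, f, neg_neg] at k1
      generalize b u (φ u) = m, b u (φ (φ u)) = n at k1
      revert m n
      decide
  have k1 := z (x * y)
  rw [map_mul, b1, s, s _ (x * y), b1, b1, s x, s y, s x, s y, z, z] at k1
  have k2 := pl x y (φ x) (φ y)
  rw [f, z, zero_mul, show b y (φ x) = -b x (φ y) by linear_combination k1] at k2
  generalize b x y = m, b x (φ y) = n at k2 β
  revert m n
  decide

end H8.K4
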